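import Mathlib
import Cfsg.Agent.SLRegGen.TwoCases

/-!
Facts on finite fields used for the choice of parameters.
-/

set_option autoImplicit false

namespace CfsgLib.SympRegGen

variable {F : Type*} [Field F]

/-- An additive subgroup stable under multiplication by a generator is everything. -/
lemma addSubgroup_top_of_stable (A : AddSubgroup F) {a k : F} (ha : a ≠ 0) (haA : a ∈ A)
    (hk : ∀ x ∈ A, k * x ∈ A) (hgen : ∀ K : Subring F, k ∈ K → K = ⊤) (x : F) : x ∈ A := by
  let S : Subring F :=
    { carrier := {z | ∀ y ∈ A, z * y ∈ A}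
      one_mem' := fun y hy => by rwa [one_mul]
      mul_mem' := fun hz hw y hy => by rw [mul_assoc]; exact hz _ (hw y hy)
      zero_mem' := fun y _ => by rw [zero_mul]; exact A.zero_mem
      add_mem' := fun hz hw y hy => by rw [add_mul]; exact A.add_mem (hz y hy) (hw y hy)
      neg_mem' := fun hz y hy => by rw [neg_mul]; exact A.neg_mem (hz y hy) }
  have hS : x / a ∈ S := by
    rw [hgen S hk]; trivial
  have := hS a haA
  rwa [div_mul_cancel₀ _ ha] at this

variable [Fintype F]

/-- A proper subfield has at most square root many elements. -/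
lemma card_sq_le (K : Subfield F) (hK : K ≠ ⊤) : Nat.card K ^ 2 ≤ Fintype.card F := by
  classical
  have hcard := Module.natCard_eq_pow_finrank (K := K) (V := F)
  have hk : 1 < Nat.card K := Finite.one_lt_card
  have hd : 2 ≤ Module.finrank K F := by
    by_contra h
    apply hK
    have hle : Nat.card F ≤ Nat.card K := by
      rw [hcard]
      exact (Nat.pow_le_pow_right (by omega) (show Module.finrank K F ≤ 1 by omega)).trans (by rw [pow_one])
    have hbij := (Nat.bijective_iff_injective_and_card ((↑) : K → F)).2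
      ⟨Subtype.val_injective, le_antisymm (Nat.card_le_card_of_injective _ Subtype.val_injective) hle⟩
    rw [eq_top_iff]
    intro x _
    obtain ⟨y, rfl⟩ := hbij.2 x
    exact y.2
  rw [← Nat.card_eq_fintype_card, hcard]
  exact Nat.pow_le_pow_right (by omega) hd

/-- The subfield underlying a subring of a finite field. -/
def toSubfield (K : Subring F) : Subfield F :=
  { K with inv_mem' := fun _ hx => CfsgLib.SLRegGen.subring_inv_mem K hx }

lemma pow_card_sub_one (K : Subfield F) {x : F} (hx : x ∈ K) (h0 : x ≠ 0) : x ^ (Nat.card K - 1) = 1 := by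
  classical
  rw [Nat.card_eq_fintype_card]
  have := FiniteField.pow_card_sub_one_eq_one (⟨x, hx⟩ : K) (fun e => h0 (congrArg Subtype.val e))
  exact congrArg Subtype.val this

/-- The fourth power of a generator generates, unless there are nine elements or a prime number. -/
lemma subring_top_of_fourth {θ : F} (hθ : θ ≠ 0) (hgen : ∀ K : Subring F, θ ∈ K → K = ⊤)
    (hord : ∀ k : ℕ, θ ^ k = 1 → Fintype.card F - 1 ∣ k) (hp : ¬ (Fintype.card F).Prime)
    (h9 : Fintype.card F ≠ 9) (K : Subring F) (hK : θ ^ 4 ∈ K) : K = ⊤ := by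
  by_contra hne
  have hne' : toSubfield K ≠ ⊤ := fun h => hne (by
    rw [eq_top_iff]
    intro x _
    have : x ∈ toSubfield K := by rw [h]; trivial
    exact this)
  have hsq := card_sq_le _ hne'
  have hk : 1 < Nat.card (toSubfield K) := Finite.one_lt_card
  have h1 := pow_card_sub_one (toSubfield K) hK (pow_ne_zero _ hθ)
  rw [← pow_mul] at h1
  have h2 := Nat.le_of_dvd (by omega) (hord _ h1)
  set k := Nat.card (toSubfield K)
  set q := Fintype.card F
  have hk4 : k ≤ 3 := by
    have hq' : q + 3 ≤ 4 * k := by omega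
    nlinarith
  obtain ⟨n, hpr, hn⟩ := FiniteField.card F (ringChar F)
  have hq9 : q ≤ 9 := by omega
  by_cases h2' : (2 : F) = 0
  · -- characteristic two: fourth powers generate
    apply hne
    apply hgen
    have hq4 : 4 ∣ q := by
      have hr : ringChar F = 2 := by
        have : CharP F 2 := CharTwo.of_one_ne_zero_of_two_eq_zero one_ne_zero h2'
        exact ringChar.eq F 2
      have hq : q = ringChar F ^ (n : ℕ) := hn
      rw [hr] at hq
      have : 2 ≤ (n : ℕ) := by
        by_contra hh
        exact hp (by rw [hq, show (n : ℕ) = 1 by have := n.pos; omega]; norm_num)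
      rw [hq]
      exact pow_dvd_pow 2 this
    obtain ⟨r, hr⟩ := hq4
    have := K.pow_mem hK r
    rwa [← pow_mul, ← hr, FiniteField.pow_card] at this
  · have hodd : q % 2 = 1 := by
      refine FiniteField.odd_card_of_char_ne_two (fun hr => h2' ?_)
      have := ringChar.charP F
      rw [hr] at this
      exact_mod_cast CharP.cast_eq_zero F 2
    have hq2 : 2 ≤ q := Fintype.one_lt_card
    interval_cases q <;> first | omega | (exact hp (by norm_num)) | exact h9 rfl

/-- In a field with `p ^ 2` elements two independent elements span additively. -/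
lemma addSubgroup_top_of_card_sq {p : ℕ} (hp : p.Prime) (hq : Fintype.card F = p ^ 2) (A : AddSubgroup F)
    {a r : F} (ha : a ≠ 0) (haA : a ∈ A) (hrA : r * a ∈ A) (hr : ∀ z : ℤ, r ≠ z) (x : F) : x ∈ A := by
  classical
  let A' : AddSubgroup F := A.comap (AddMonoidHom.mulRight a)
  have h1 : (1 : F) ∈ A' := by
    show (1 : F) * a ∈ A
    rwa [one_mul]
  have hrA' : r ∈ A' := hrA
  have hB : AddSubgroup.zmultiples (1 : F) ≤ A' := AddSubgroup.zmultiples_le_of_mem h1
  have hcard : Nat.card A' ∣ p ^ 2 := by
    rw [← hq, ← Nat.card_eq_fintype_card]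
    exact AddSubgroup.card_addSubgroup_dvd_card A'
  have hp1 : Nat.card (AddSubgroup.zmultiples (1 : F)) = p := by
    rw [Nat.card_zmultiples, ← @ringChar.eq F _ (addOrderOf (1 : F)) (CharP.addOrderOf_one F)]
    obtain ⟨n, hpr, hn⟩ := FiniteField.card F (ringChar F)
    have : ringChar F ∣ p ^ 2 := by rw [← hq, hn]; exact dvd_pow_self _ n.pos.ne'
    exact (Nat.prime_dvd_prime_iff_eq hpr hp).1 (hpr.dvd_of_dvd_pow this)
  have hdvd : p ∣ Nat.card A' := hp1 ▸ AddSubgroup.card_dvd_of_le hB
  obtain ⟨i, hi, hAi⟩ := (Nat.dvd_prime_pow hp).1 hcard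
  have htop : A' = ⊤ := by
    apply AddSubgroup.eq_top_of_card_eq
    rw [Nat.card_eq_fintype_card (α := F), hq, hAi]
    interval_cases i
    · exfalso
      rw [hAi, pow_zero] at hdvd
      exact hp.one_lt.ne' (Nat.dvd_one.1 hdvd)
    · exfalso
      rw [pow_one] at hAi
      have heq := AddSubgroup.eq_of_le_of_card_ge hB (by rw [hAi, hp1])
      rw [← heq, AddSubgroup.mem_zmultiples_iff] at hrA'
      obtain ⟨z, hz⟩ := hrA'
      exact hr z (by rw [← hz, zsmul_one])
    · rfl
  have hx : x / a ∈ A' := by rw [htop]; trivial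
  have := hx
  change x / a * a ∈ A at this
  rwa [div_mul_cancel₀ _ ha] at this

/-- In characteristic two some `t ^ 2 + t` generates, unless there are four elements. -/
lemma exists_artinSchreier_generator (h2 : (2 : F) = 0) (h4 : 4 < Fintype.card F) {θ : F} (hθ : θ ≠ 0)
    (hgen : ∀ K : Subring F, θ ∈ K → K = ⊤) (hord : ∀ k : ℕ, θ ^ k = 1 → Fintype.card F - 1 ∣ k) :
    ∃ t : F, ∀ K : Subring F, t ^ 2 + t ∈ K → K = ⊤ := by
  classical
  set q := Fintype.card F
  -- for a bad element, the square root Frobenius translates by one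
  have key : ∀ t : F, t ≠ 0 → (∀ k : ℕ, t ^ k = 1 → q - 1 ∣ k) → ∀ K : Subfield F, t ^ 2 + t ∈ K → K ≠ ⊤ →
      t ^ Nat.card K = t + 1 ∧ Nat.card K ^ 2 = q := by
    intro t ht0 ht K hK hne
    have hk : 1 < Nat.card K := Finite.one_lt_card
    have hsq := card_sq_le K hne
    have hr : ringChar F = 2 := by
      have : CharP F 2 := CharTwo.of_one_ne_zero_of_two_eq_zero one_ne_zero h2
      exact ringChar.eq F 2
    have hadd : ∀ x y : F, (x + y) ^ Nat.card K = x ^ Nat.card K + y ^ Nat.card K := by
      intro x y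
      have : CharP F 2 := CharTwo.of_one_ne_zero_of_two_eq_zero one_ne_zero h2
      have : ExpChar F 2 := ExpChar.prime Nat.prime_two
      have hK2 : CharP K 2 := inferInstance
      obtain ⟨j, -, hj⟩ := FiniteField.card K 2
      rw [Nat.card_eq_fintype_card, hj, add_pow_char_pow]
    have hfix : (t ^ 2 + t) ^ Nat.card K = t ^ 2 + t := by
      rw [Nat.card_eq_fintype_card]
      exact congrArg Subtype.val (FiniteField.pow_card (⟨_, hK⟩ : K))
    rw [hadd, ← pow_mul, mul_comm 2, pow_mul] at hfix
    have hfac : (t ^ Nat.card K + t) * (t ^ Nat.card K + t + 1) = 0 := by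
      linear_combination hfix + (t ^ 2 + t ^ Nat.card K * t + t) * h2
    rcases mul_eq_zero.1 hfac with h | h
    · exfalso
      have h1 : t ^ (Nat.card K - 1) = 1 := by
        apply mul_right_cancel₀ ht0
        rw [← pow_succ, show Nat.card K - 1 + 1 = Nat.card K by omega, one_mul]
        linear_combination h - t * h2
      have := Nat.le_of_dvd (by omega) (ht _ h1)
      have : Nat.card K < Nat.card K ^ 2 := by nlinarith
      omega
    · have e : t ^ Nat.card K = t + 1 := by linear_combination h - (t + 1) * h2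
      refine ⟨e, le_antisymm hsq ?_⟩
      have e2 : t ^ (Nat.card K ^ 2 - 1) = 1 := by
        apply mul_right_cancel₀ ht0
        rw [← pow_succ, Nat.sub_add_cancel (Nat.one_le_pow _ _ (by omega)), one_mul, pow_two, pow_mul, e,
          hadd, one_pow, e]
        linear_combination h2
      have : Nat.card K < Nat.card K ^ 2 := by nlinarith
      have := Nat.le_of_dvd (by omega) (ht _ e2)
      omega
  by_contra hno
  push Not at hno
  have hord' : ∀ k : ℕ, θ⁻¹ ^ k = 1 → q - 1 ∣ k := fun k hk => hord k (by rwa [inv_pow, inv_eq_one] at hk)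
  have toF : ∀ K : Subring F, K ≠ ⊤ → toSubfield K ≠ ⊤ := fun K h e => h (by
    rw [eq_top_iff]
    intro x _
    have : x ∈ toSubfield K := by rw [e]; trivial
    exact this)
  obtain ⟨K, hK, hKne⟩ := hno θ
  obtain ⟨K', hK', hKne'⟩ := hno θ⁻¹
  obtain ⟨e1, c1⟩ := key θ hθ hord (toSubfield K) hK (toF K hKne)
  obtain ⟨e2, c2⟩ := key θ⁻¹ (inv_ne_zero hθ) hord' (toSubfield K') hK' (toF K' hKne')
  have hkk : Nat.card (toSubfield K') = Nat.card (toSubfield K) :=
    Nat.pow_left_injective (show 2 ≠ 0 by norm_num) (c2.trans c1.symm)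
  rw [hkk, inv_pow, e1] at e2
  have hθ1 : θ + 1 ≠ 0 := by
    intro h
    have := Nat.le_of_dvd one_pos (hord 1 (by linear_combination h - h2))
    omega
  have h3 : θ ^ 2 + θ + 1 = 0 := by
    field_simp at e2
    linear_combination -e2
  have h33 : θ ^ 3 = 1 := by linear_combination (θ - 1) * h3
  have := Nat.le_of_dvd (by norm_num) (hord 3 h33)
  omega

end CfsgLib.SympRegGen
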