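import Cfsg.Agent.SympRegGen.Element

/-!
Subgroups containing `u` and full transvection groups at the fixed vector and at a cyclic vector.
-/

set_option autoImplicit false

namespace CfsgLib.SympRegGen

open Matrix CfsgLib.Classical.Symp

variable {m : ℕ} {F : Type*} [Field F]

local notation "B" => Cfsg.sympForm m F
local notation "V" => (Fin m ⊕ Fin m → F)
local notation "Sp" => Matrix.symplecticGroup (Fin m) F
local notation:70 g:71 " ⋆ " x:70 => act g x

/-- All transvections centred at `v` lie in `H`. -/
def Full (H : Subgroup (Matrix.symplecticGroup (Fin m) F)) (v : Fin m ⊕ Fin m → F) : Prop :=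
  ∀ t : F, spT v t ∈ H

variable {H : Subgroup (Matrix.symplecticGroup (Fin m) F)}

lemma Full.smul {v : V} (h : Full H v) (a : F) : Full H (a • v) := fun t => by
  rw [spT_smul]; exact h _

lemma Full.image {v : V} (h : Full H v) {g : Sp} (hg : g ∈ H) : Full H (g ⋆ v) := fun t => by
  rw [act, ← conj_spT]
  exact H.mul_mem (H.mul_mem hg (h t)) (H.inv_mem hg)

lemma Full.add_smul {v w : V} (hv : Full H v) (hw : Full H w) (h : B v w ≠ 0) (t : F) :
    Full H (v + t • w) := by
  have := hv.image (hw (t / B v w))
  rwa [act, spT_mulVec, div_mul_cancel₀ _ h] at this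

lemma Full.add {v w : V} (hv : Full H v) (hw : Full H w) (h : B v w ≠ 0) : Full H (v + w) := by
  simpa using hv.add_smul hw h 1

variable {u : Matrix.symplecticGroup (Fin m) F} {E D : Fin m ⊕ Fin m → F} {c : F}

/-- Translations preserving the centres off the hyperplane of `E`. -/
def Translation (H : Subgroup (Matrix.symplecticGroup (Fin m) F)) (E y : Fin m ⊕ Fin m → F) : Prop :=
  Cfsg.sympForm m F E y = 0 ∧ ∀ z, Full H z → Cfsg.sympForm m F E z ≠ 0 → Full H (z + y)

lemma Translation.add {y y' : V} (h : Translation H E y) (h' : Translation H E y') :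
    Translation H E (y + y') := by
  refine ⟨by rw [form_add_right, h.1, h'.1, add_zero], fun z hz hE => ?_⟩
  rw [← add_assoc]
  exact h'.2 _ (h.2 z hz hE) (by rw [form_add_right, h.1, add_zero]; exact hE)

lemma Translation.smul {y : V} (h : Translation H E y) (a : F) : Translation H E (a • y) := by
  refine ⟨by rw [form_smul_right, h.1, mul_zero], fun z hz hE => ?_⟩
  by_cases ha : a = 0
  · rwa [ha, zero_smul, add_zero]
  · have h1 := (h.2 (a⁻¹ • z) (hz.smul _) (by
      rw [form_smul_right]; exact mul_ne_zero (inv_ne_zero ha) hE)).smul a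
    rwa [smul_add, smul_smul, mul_inv_cancel₀ ha, one_smul] at h1

/-- The full centre at `E` as a translation. -/
lemma translation_E (hE : Full H E) : Translation H E E :=
  ⟨form_self E, fun z hz h => hz.add hE (fun e => h (form_eq_zero_comm.1 e))⟩

theorem eq_top_of_translation (R : Reg u E D c) (hu : u ∈ H) (hE : Full H E) (hD : Full H D)
    (hND : Translation H E (nilPart u *ᵥ D)) : H = ⊤ := by
  have hNj : ∀ j : ℕ, Translation H E (nilPart u ^ (j + 1) *ᵥ D) := by
    intro j
    induction j with
    | zero => simpa using hND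
    | succ j ih =>
      have hu' : Translation H E (u ⋆ (nilPart u ^ (j + 1) *ᵥ D)) := by
        refine ⟨by rw [R.form_E_act, ih.1], fun z hz h => ?_⟩
        have h1 := (ih.2 (u⁻¹ ⋆ z) (hz.image (H.inv_mem hu)) (by rwa [R.form_E_act_inv])).image hu
        rwa [act_add, act_act_inv] at h1
      have h2 := hu'.add (ih.smul (-1))
      rwa [neg_one_smul, ← sub_eq_add_neg, ← nilPart_mulVec, ← pow_succ_mulVec] at h2
  have hN : ∀ y : V, Translation H E (nilPart u *ᵥ y) := by
    intro y
    have hy : y ∈ Submodule.span F (Set.range fun i : Fin (2 * m) => nilPart u ^ (i : ℕ) *ᵥ D) := by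
      rw [R.span_eq_top]; trivial
    induction hy using Submodule.span_induction with
    | mem y hy =>
      obtain ⟨i, rfl⟩ := hy
      simp only
      rw [← pow_succ_mulVec]
      exact hNj _
    | zero =>
      rw [mulVec_zero]
      exact ⟨form_zero_right _, fun z hz _ => by rwa [add_zero]⟩
    | add x y _ _ hx hy => rw [mulVec_add]; exact hx.add hy
    | smul a x _ hx => rw [mulVec_smul]; exact hx.smul a
  have hoff : ∀ x : V, B E x ≠ 0 → Full H x := by
    intro x hx
    obtain ⟨y, hy⟩ := R.exists_decomp x
    rw [hy]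
    exact (hN y).2 _ (hD.smul _) (by rw [form_smul_right, R.pair, mul_one]; exact hx)
  have hall : ∀ x : V, Full H x := by
    intro x
    by_cases hx : B E x = 0
    · by_cases h0 : x = 0
      · intro t
        rw [h0, spT_zero_left]
        exact H.one_mem
      · obtain ⟨y, hy⟩ := exists_form_eq_one h0
        obtain ⟨z, hz1, hz2⟩ : ∃ z, B E z ≠ 0 ∧ B x z ≠ 0 := by
          by_cases h1 : B E y = 0
          · by_cases h2 : B x D = 0
            · exact ⟨y + D, by rw [form_add_right, h1, R.pair, zero_add]; exact one_ne_zero,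
                by rw [form_add_right, hy, h2, add_zero]; exact one_ne_zero⟩
            · exact ⟨D, by rw [R.pair]; exact one_ne_zero, h2⟩
          · exact ⟨y, h1, by rw [hy]; exact one_ne_zero⟩
        have h3 : Full H (x - z) := hoff _ (by rw [form_sub_right, hx, zero_sub, neg_ne_zero]; exact hz1)
        have h4 := h3.add (hoff z hz1) (by rw [form_sub_left, form_self, sub_zero]; exact hz2)
        rwa [sub_add_cancel] at h4
    · exact hoff x hx
  rw [eq_top_iff, ← closure_transvectionSet, Subgroup.closure_le]
  rintro g hg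
  obtain ⟨v, t, rfl⟩ : ∃ v t, g = spT v t := by
    obtain ⟨v, t, h⟩ := hg
    exact ⟨v, t, Subtype.ext h⟩
  exact hall v t

/-- The translation by `u D - D`, for fields with at least three elements. -/
theorem translation_of_three (R : Reg u E D c) (hu : u ∈ H) (hE : Full H E) (hD : Full H D)
    (h3 : ∃ s : F, s ≠ 0 ∧ s ≠ 1) : Translation H E (nilPart u *ᵥ D) := by
  refine ⟨R.form_E_nil D, fun z hz hEz => ?_⟩
  have hzE : B z E ≠ 0 := fun e => hEz (form_eq_zero_comm.1 e)
  obtain ⟨s, hs0, hs1⟩ := h3
  set a := B z (u ⋆ D) with ha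
  set b := B z D + B (u ⋆ D) D with hb
  obtain ⟨t, hta, htb⟩ : ∃ t : F, a + t ≠ 0 ∧ b + t ≠ 0 := by
    by_cases hab : a = b
    · exact ⟨1 - a, by simp, by rw [hab]; simp⟩
    · refine ⟨-a + s * (a - b), ?_, ?_⟩
      · rw [add_neg_cancel_left]
        exact mul_ne_zero hs0 (sub_ne_zero.2 hab)
      · rw [show b + (-a + s * (a - b)) = (s - 1) * (a - b) by ring]
        exact mul_ne_zero (sub_ne_zero.2 hs1) (sub_ne_zero.2 hab)
  have h1 : Full H (z + t • E) := hz.add_smul hE hzE t
  have huD : Full H (u ⋆ D) := hD.image hu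
  have hEuD : B E (u ⋆ D) = 1 := by rw [R.form_E_act, R.pair]
  have h2 : Full H (z + t • E + u ⋆ D) := h1.add huD (by
    rw [form_add_left, form_smul_left, hEuD, mul_one]; exact hta)
  have h4 : Full H (z + t • E + u ⋆ D + (-1 : F) • D) := h2.add_smul hD (by
    rw [form_add_left, form_add_left, form_smul_left, R.pair, mul_one, add_right_comm]
    exact htb) _
  have h5 := h4.add_smul hE (by
    rw [form_swap, form_add_right, form_add_right, form_add_right, form_smul_right, form_smul_right,
      form_self, hEuD, R.pair, neg_ne_zero]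
    simpa using hEz) (-t)
  convert h5 using 1
  rw [nilPart_mulVec]
  module

/-- The translation by `u D - D` from a full centre in the kernel of the square. -/
theorem translation_of_square (R : Reg u E D c) (hu : u ∈ H) (hE : Full H E) (hD : Full H D) {w : V}
    (hw : Full H w) (hNw : nilPart u *ᵥ w = E) (hEw : B E w = 0) (hδ : B D (u ⋆ D) ≠ 0) :
    Translation H E (nilPart u *ᵥ D) := by
  have huw : u ⋆ w = w + E := by rw [act_eq, hNw]
  have tw : Translation H E w := by
    refine ⟨hEw, fun z hz hEz => ?_⟩
    by_cases h : B z w = 0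
    · have hzE : B z E ≠ 0 := fun e => hEz (form_eq_zero_comm.1 e)
      have h1 : Full H (z + (w + E)) :=
        hz.add (huw ▸ hw.image hu) (by rw [form_add_right, h, zero_add]; exact hzE)
      have h2 := h1.add_smul hE (by
        rw [form_swap, form_add_right, form_add_right, hEw, form_self, neg_ne_zero]; simpa using hEz) (-1)
      convert h2 using 1
      module
    · exact hz.add hw h
  have hx : Full H (nilPart u *ᵥ D) := by
    have h1 := (hD.image hu).add_smul hD (by rw [Ne, form_eq_zero_comm]; exact hδ) (-1)
    rw [nilPart_mulVec]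
    convert h1 using 1
    module
  refine ⟨R.form_E_nil D, fun z hz hEz => ?_⟩
  by_cases h : B z (nilPart u *ᵥ D) = 0
  · have h1 : Full H (z + w) := tw.2 z hz hEz
    have hwN' : B w (nilPart u *ᵥ D) ≠ 0 := by
      have hinv : u⁻¹ ⋆ w = w - E := by
        conv_lhs => rw [show w = u ⋆ (w - E) by rw [act_sub, huw, R.fix_E, add_sub_cancel_right]]
        rw [act_inv_act]
      rw [nilPart_mulVec, form_sub_right, form_act_right, hinv, form_sub_left, R.pair]
      simp
    have h2 : Full H (z + w + nilPart u *ᵥ D) := h1.add hx (by rw [form_add_left, h, zero_add]; exact hwN')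
    have h3 := (tw.smul (-1)).2 _ h2 (by
      rw [form_add_right, form_add_right, hEw, R.form_E_nil, add_zero, add_zero]; exact hEz)
    convert h3 using 1
    module
  · exact hz.add hx h

end CfsgLib.SympRegGen
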