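import Cfsg.Agent.Classical.Symp.Transvection
import Cfsg.Agent.Classical.SympFormStd
import Cfsg.Agent.LinAlg.Witt.Mat

/-!
Regular unipotent elements of a symplectic group through a cyclic vector.
-/

set_option autoImplicit false

namespace CfsgLib.SympRegGen

open Matrix CfsgLib.Classical.Symp

variable {m : ℕ} {F : Type*} [Field F]

local notation "B" => Cfsg.sympForm m F
local notation "Mat" => Matrix (Fin m ⊕ Fin m) (Fin m ⊕ Fin m) F
local notation "V" => (Fin m ⊕ Fin m → F)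
local notation "Sp" => Matrix.symplecticGroup (Fin m) F

/-- The action on vectors. -/
abbrev act (g : Sp) (x : V) : V := (g : Mat) *ᵥ x

local notation:70 g:71 " ⋆ " x:70 => act g x

lemma act_mul (g h : Sp) (x : V) : (g * h) ⋆ x = g ⋆ (h ⋆ x) := by
  simp [act, Matrix.mulVec_mulVec]

lemma act_one (x : V) : (1 : Sp) ⋆ x = x := by simp [act]

lemma act_add (g : Sp) (x y : V) : g ⋆ (x + y) = g ⋆ x + g ⋆ y := mulVec_add _ _ _

lemma act_sub (g : Sp) (x y : V) : g ⋆ (x - y) = g ⋆ x - g ⋆ y := mulVec_sub _ _ _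

lemma act_smul (g : Sp) (a : F) (x : V) : g ⋆ (a • x) = a • (g ⋆ x) := mulVec_smul _ _ _

lemma act_inv_act (g : Sp) (x : V) : g⁻¹ ⋆ (g ⋆ x) = x := by
  rw [← act_mul, inv_mul_cancel, act_one]

lemma act_act_inv (g : Sp) (x : V) : g ⋆ (g⁻¹ ⋆ x) = x := by
  rw [← act_mul, mul_inv_cancel, act_one]

lemma form_act (g : Sp) (x y : V) : B (g ⋆ x) (g ⋆ y) = B x y :=
  (mem_symplecticGroup_iff_form (g : Mat)).1 g.2 x y

lemma form_act_left (g : Sp) (x y : V) : B (g ⋆ x) y = B x (g⁻¹ ⋆ y) := by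
  rw [← form_act g x (g⁻¹ ⋆ y), act_act_inv]

lemma form_act_right (g : Sp) (x y : V) : B x (g ⋆ y) = B (g⁻¹ ⋆ x) y := by
  rw [← form_act g (g⁻¹ ⋆ x) y, act_act_inv]

lemma eq_of_act {g h : Sp} (e : ∀ x, g ⋆ x = h ⋆ x) : g = h :=
  Subtype.ext (Matrix.ext_iff_mulVec.2 e)

/-- `u - 1`. -/
abbrev nilPart (u : Sp) : Mat := (u : Mat) - 1

lemma nilPart_mulVec (u : Sp) (x : V) : nilPart u *ᵥ x = u ⋆ x - x := by
  rw [sub_mulVec, one_mulVec]

lemma act_eq (u : Sp) (x : V) : u ⋆ x = x + nilPart u *ᵥ x := by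
  rw [nilPart_mulVec]; abel

lemma pow_succ_mulVec (N : Mat) (j : ℕ) (x : V) : N ^ (j + 1) *ᵥ x = N *ᵥ (N ^ j *ᵥ x) := by
  rw [mulVec_mulVec, pow_succ']

lemma pow_succ_mulVec' (N : Mat) (j : ℕ) (x : V) : N ^ (j + 1) *ᵥ x = N ^ j *ᵥ (N *ᵥ x) := by
  rw [mulVec_mulVec, pow_succ]

lemma commute_inv_nilPart (u : Sp) : Commute ((u⁻¹ : Sp) : Mat) (nilPart u) := by
  refine Commute.sub_right ?_ (Commute.one_right _)
  show _ * _ = _ * _
  rw [← Submonoid.coe_mul, ← Submonoid.coe_mul, inv_mul_cancel, mul_inv_cancel]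

lemma form_nilPart_left (u : Sp) (x y : V) :
    B (nilPart u *ᵥ x) y = -B x (nilPart u *ᵥ (u⁻¹ ⋆ y)) := by
  rw [nilPart_mulVec, nilPart_mulVec, form_sub_left, form_act_left, act_act_inv, form_sub_right]
  ring

/-- Powers of the nilpotent part are adjoint to each other up to a unit. -/
lemma form_pow_pow {u : Sp} {d : ℕ} (hd : nilPart u ^ d = 0) : ∀ (a b : ℕ), d ≤ a + b → ∀ x y : V,
    B (nilPart u ^ a *ᵥ x) (nilPart u ^ b *ᵥ y) = 0 := by
  intro a
  induction a with
  | zero =>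
    intro b hb x y
    rw [show b = d + (b - d) by omega, pow_add, hd, zero_mul, zero_mulVec, form_zero_right]
  | succ a ih =>
    intro b hb x y
    rw [pow_succ_mulVec, form_nilPart_left]
    have e : nilPart u *ᵥ (u⁻¹ ⋆ (nilPart u ^ b *ᵥ y)) = nilPart u ^ (b + 1) *ᵥ (u⁻¹ ⋆ y) := by
      simp only [act, mulVec_mulVec, ((commute_inv_nilPart u).pow_right b).eq, pow_succ', mul_assoc]
    rw [e, ih (b + 1) (by omega), neg_zero]

lemma linearIndependent_of_top {u : Matrix.symplecticGroup (Fin m) F} {D : Fin m ⊕ Fin m → F} {d : ℕ}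
    (hd : nilPart u ^ d = 0) (hD : nilPart u ^ (d - 1) *ᵥ D ≠ 0) :
    LinearIndependent F (fun i : Fin d => nilPart u ^ (i : ℕ) *ᵥ D) := by
  rw [Fintype.linearIndependent_iff]
  intro x hx i
  induction hi : (i : ℕ) using Nat.strong_induction_on generalizing i with
  | _ k ih =>
    have h := congrArg (fun y => nilPart u ^ (d - 1 - (i : ℕ)) *ᵥ y) hx
    simp only [mulVec_sum, mulVec_smul, mulVec_mulVec, ← pow_add, mulVec_zero] at h
    rw [Finset.sum_eq_single i] at h
    · rw [show d - 1 - (i : ℕ) + (i : ℕ) = d - 1 by omega, smul_eq_zero] at h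
      exact h.resolve_right hD
    · intro j _ hj
      rcases lt_or_gt_of_ne (Fin.val_ne_iff.2 hj) with h' | h'
      · rw [ih (j : ℕ) (by omega) j rfl, zero_smul]
      · rw [show d - 1 - (i : ℕ) + (j : ℕ) = d + ((j : ℕ) - (i : ℕ) - 1) by omega, pow_add, hd, zero_mul,
          zero_mulVec, smul_zero]
    · simp

/-- A regular unipotent element with fixed vector `E` and cyclic vector `D`. -/
structure Reg (u : Matrix.symplecticGroup (Fin m) F) (E D : Fin m ⊕ Fin m → F) (c : F) : Prop where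
  two_le : 2 ≤ m
  nil : nilPart u ^ (2 * m) = 0
  top : E = c • (nilPart u ^ (2 * m - 1) *ᵥ D)
  pair : Cfsg.sympForm m F E D = 1

namespace Reg

variable {u : Matrix.symplecticGroup (Fin m) F} {E D : Fin m ⊕ Fin m → F} {c : F} (R : Reg u E D c)
include R

lemma c_ne : c ≠ 0 := fun h => by
  have := R.pair
  rw [R.top, h, zero_smul, form_zero_left] at this
  exact zero_ne_one this

lemma top_ne : nilPart u ^ (2 * m - 1) *ᵥ D ≠ 0 := fun h => by
  have := R.pair
  rw [R.top, h, smul_zero, form_zero_left] at this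
  exact zero_ne_one this

lemma E_ne : E ≠ 0 := by
  rw [R.top]; exact smul_ne_zero R.c_ne R.top_ne

lemma nil_E : nilPart u *ᵥ E = 0 := by
  have := R.two_le
  rw [R.top, mulVec_smul, ← pow_succ_mulVec, show 2 * m - 1 + 1 = 2 * m by omega, R.nil, zero_mulVec,
    smul_zero]

lemma fix_E : u ⋆ E = E := by rw [act_eq, R.nil_E, add_zero]

lemma inv_fix_E : u⁻¹ ⋆ E = E := by
  conv_lhs => rw [← R.fix_E]
  rw [act_inv_act]

lemma form_E_act (x : V) : B E (u ⋆ x) = B E x := by
  conv_lhs => rw [← R.fix_E]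
  rw [form_act]

lemma form_E_act_inv (x : V) : B E (u⁻¹ ⋆ x) = B E x := by
  conv_lhs => rw [← R.inv_fix_E]
  rw [form_act]

lemma form_E_nil (x : V) : B E (nilPart u *ᵥ x) = 0 := by
  rw [nilPart_mulVec, form_sub_right, R.form_E_act, sub_self]

lemma form_E_pow (x : V) (j : ℕ) : B E (nilPart u ^ (j + 1) *ᵥ x) = 0 := by
  rw [pow_succ_mulVec, R.form_E_nil]

lemma act_pow_E (k : ℕ) : (u ^ k) ⋆ E = E := by
  induction k with
  | zero => rw [pow_zero, act_one]
  | succ k ih => rw [pow_succ, act_mul, R.fix_E, ih]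

lemma form_E_act_pow (x : V) (k : ℕ) : B E ((u ^ k) ⋆ x) = B E x := by
  conv_lhs => rw [← R.act_pow_E k]
  rw [form_act]

/-- Powers vanish from `2 m` on. -/
lemma pow_zero' {j : ℕ} (hj : 2 * m ≤ j) (x : V) : nilPart u ^ j *ᵥ x = 0 := by
  rw [show j = 2 * m + (j - 2 * m) by omega, pow_add, R.nil, zero_mul, zero_mulVec]

lemma linearIndependent : LinearIndependent F (fun i : Fin (2 * m) => nilPart u ^ (i : ℕ) *ᵥ D) :=
  linearIndependent_of_top R.nil R.top_ne

lemma span_eq_top : Submodule.span F (Set.range fun i : Fin (2 * m) => nilPart u ^ (i : ℕ) *ᵥ D) = ⊤ := by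
  have := R.two_le
  have : Nonempty (Fin (2 * m)) := ⟨⟨0, by omega⟩⟩
  exact R.linearIndependent.span_eq_top_of_card_eq_finrank (by simp [two_mul])

/-- Every vector is a multiple of `D` modulo the image of the nilpotent part. -/
lemma exists_decomp (x : V) : ∃ y, x = B E x • D + nilPart u *ᵥ y := by
  suffices h : ∀ x ∈ Submodule.span F (Set.range fun i : Fin (2 * m) => nilPart u ^ (i : ℕ) *ᵥ D),
      ∃ y, x = B E x • D + nilPart u *ᵥ y from h x (by rw [R.span_eq_top]; trivial)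
  intro x hx
  induction hx using Submodule.span_induction with
  | mem x hx =>
    obtain ⟨⟨i, hi⟩, rfl⟩ := hx
    cases i with
    | zero => exact ⟨0, by simp [R.pair]⟩
    | succ j => exact ⟨nilPart u ^ j *ᵥ D, by simp only; rw [R.form_E_pow, zero_smul, zero_add, pow_succ_mulVec]⟩
  | zero => exact ⟨0, by simp [form_zero_right]⟩
  | add x y _ _ hx hy =>
    obtain ⟨a, ha⟩ := hx
    obtain ⟨b, hb⟩ := hy
    refine ⟨a + b, ?_⟩
    rw [form_add_right, add_smul, mulVec_add]
    nth_rewrite 1 [ha, hb]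
    abel
  | smul r x _ hx =>
    obtain ⟨a, ha⟩ := hx
    refine ⟨r • a, ?_⟩
    rw [form_smul_right, mul_smul, mulVec_smul, ← smul_add, ← ha]

/-- Change of the cyclic vector. -/
lemma change {D' : V} (h : B E D' = 1) : Reg u E D' c := by
  refine ⟨R.two_le, R.nil, ?_, h⟩
  obtain ⟨y, hy⟩ := R.exists_decomp D'
  have := R.two_le
  rw [hy, h, one_smul, mulVec_add, ← pow_succ_mulVec', R.pow_zero' (j := 2 * m - 1 + 1) (by omega), add_zero]
  exact R.top

/-- An element of the kernel of the square of the nilpotent part. -/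
lemma exists_w2 : ∃ w : V, nilPart u *ᵥ w = E ∧ B E w = 0 := by
  have := R.two_le
  refine ⟨c • (nilPart u ^ (2 * m - 2) *ᵥ D), ?_, ?_⟩
  · rw [R.top, mulVec_smul, ← pow_succ_mulVec, show 2 * m - 2 + 1 = 2 * m - 1 by omega]
  · rw [form_smul_right, show 2 * m - 2 = 2 * m - 3 + 1 by omega, R.form_E_pow, mul_zero]

/-- An element `w` with `N² w = E`. -/
lemma exists_w3 : ∃ w : V, nilPart u *ᵥ (nilPart u *ᵥ w) = E ∧ B E w = 0 ∧
    (3 ≤ m → B w (nilPart u *ᵥ w) = 0) := by
  have := R.two_le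
  refine ⟨c • (nilPart u ^ (2 * m - 3) *ᵥ D), ?_, ?_, fun h3 => ?_⟩
  · rw [R.top, mulVec_smul, mulVec_smul, ← pow_succ_mulVec, ← pow_succ_mulVec,
      show 2 * m - 3 + 1 + 1 = 2 * m - 1 by omega]
  · rw [form_smul_right, show 2 * m - 3 = 2 * m - 4 + 1 by omega, R.form_E_pow, mul_zero]
  · rw [mulVec_smul, ← pow_succ_mulVec, form_smul_left, form_smul_right,
      form_pow_pow R.nil _ _ (by omega), mul_zero, mul_zero]

end Reg

lemma exists_reg {u : Sp} (hm : 2 ≤ m) (h0 : nilPart u ^ (2 * m) = 0)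
    (h1 : nilPart u ^ (2 * m - 1) ≠ 0) : ∃ E D c, Reg u E D c := by
  obtain ⟨D, hD⟩ : ∃ D : V, nilPart u ^ (2 * m - 1) *ᵥ D ≠ 0 := by
    by_contra h
    push Not at h
    exact h1 (Matrix.ext_iff_mulVec.2 fun x => by rw [h x, zero_mulVec])
  set T := nilPart u ^ (2 * m - 1) *ᵥ D with hT
  by_cases hc : B T D = 0
  · exfalso
    obtain ⟨y, hy⟩ := exists_form_eq_one hD
    have hTN : ∀ x : V, B T (nilPart u *ᵥ x) = 0 := fun x => by
      rw [hT]
      simpa using form_pow_pow h0 (2 * m - 1) 1 (by omega) D x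
    have hspan : ∀ j : ℕ, B T (nilPart u ^ j *ᵥ D) = 0 := by
      intro j
      cases j with
      | zero => simpa using hc
      | succ j => rw [pow_succ_mulVec, hTN]
    have hli : LinearIndependent F (fun i : Fin (2 * m) => nilPart u ^ (i : ℕ) *ᵥ D) :=
      linearIndependent_of_top h0 hD
    have : Nonempty (Fin (2 * m)) := ⟨⟨0, by omega⟩⟩
    have htop := hli.span_eq_top_of_card_eq_finrank (by simp [two_mul])
    have : B T y = 0 := by
      clear hy
      have hyin : y ∈ Submodule.span F (Set.range fun i : Fin (2 * m) => nilPart u ^ (i : ℕ) *ᵥ D) := by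
        rw [htop]; trivial
      induction hyin using Submodule.span_induction with
      | mem x hx => obtain ⟨i, rfl⟩ := hx; exact hspan i
      | zero => exact form_zero_right _
      | add x y _ _ hx hy' => rw [form_add_right, hx, hy', add_zero]
      | smul r x _ hx => rw [form_smul_right, hx, mul_zero]
    rw [this] at hy
    exact zero_ne_one hy
  · exact ⟨(B T D)⁻¹ • T, D, (B T D)⁻¹, hm, h0, rfl, by rw [form_smul_left, inv_mul_cancel₀ hc]⟩

/-- Conjugacy from equality of the invariants of the cyclic vectors. -/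
theorem exists_conj {u u' : Sp} {E E' D D' : V} {c c' : F} (R : Reg u E D c) (R' : Reg u' E' D' c')
    (h : ∀ k : ℕ, B D ((u ^ k) ⋆ D) = B D' ((u' ^ k) ⋆ D')) : ∃ g : Sp, g * u * g⁻¹ = u' := by
  have hG : ∀ i j : ℕ, B ((u ^ i) ⋆ D) ((u ^ j) ⋆ D) = B ((u' ^ i) ⋆ D') ((u' ^ j) ⋆ D') := by
    intro i j
    rcases le_total i j with hij | hij
    · obtain ⟨k, rfl⟩ := Nat.exists_eq_add_of_le hij
      rw [pow_add, pow_add, act_mul, act_mul, form_act, form_act, h]
    · obtain ⟨k, rfl⟩ := Nat.exists_eq_add_of_le hij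
      rw [pow_add, pow_add, act_mul, act_mul, form_act, form_act, form_swap, h, ← form_swap]
  have hpow : ∀ (v : Sp) (x : V) (i a : ℕ), nilPart v ^ (i + 1) *ᵥ ((v ^ a) ⋆ x) =
      nilPart v ^ i *ᵥ ((v ^ (a + 1)) ⋆ x) - nilPart v ^ i *ᵥ ((v ^ a) ⋆ x) := by
    intro v x i a
    rw [pow_succ_mulVec', nilPart_mulVec, ← act_mul, ← pow_succ', mulVec_sub]
  have hN : ∀ i a j b : ℕ, B (nilPart u ^ i *ᵥ ((u ^ a) ⋆ D)) (nilPart u ^ j *ᵥ ((u ^ b) ⋆ D)) =
      B (nilPart u' ^ i *ᵥ ((u' ^ a) ⋆ D')) (nilPart u' ^ j *ᵥ ((u' ^ b) ⋆ D')) := by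
    intro i
    induction i with
    | zero =>
      intro a j
      induction j generalizing a with
      | zero => intro b; simp only [pow_zero, one_mulVec]; exact hG a b
      | succ j ih => intro b; rw [hpow, hpow, form_sub_right, form_sub_right, ih, ih]
    | succ i ih => intro a j b; rw [hpow, hpow, form_sub_left, form_sub_left, ih, ih]
  obtain ⟨g, hg, hgD⟩ := CfsgLib.LinAlg.Witt.exists_symplectic_family
    (CfsgLib.SympFormStd.isSymplecticForm m F) R.linearIndependent R'.linearIndependent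
    (fun i j => by simpa [act_one] using hN i 0 j 0)
  let h' : Sp := ⟨(g : Mat), (mem_symplecticGroup_iff_form _).2 hg⟩
  have hgD' : ∀ i : ℕ, h' ⋆ (nilPart u ^ i *ᵥ D) = nilPart u' ^ i *ᵥ D' := by
    intro i
    by_cases hi : i < 2 * m
    · exact hgD ⟨i, hi⟩
    · rw [R.pow_zero' (by omega), R'.pow_zero' (by omega), act, mulVec_zero]
  have key : h' * u = u' * h' := by
    refine Subtype.ext (Matrix.ext_iff_mulVec.2 fun x => ?_)
    have hx : x ∈ Submodule.span F (Set.range fun i : Fin (2 * m) => nilPart u ^ (i : ℕ) *ᵥ D) := by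
      rw [R.span_eq_top]; trivial
    show (h' * u) ⋆ x = (u' * h') ⋆ x
    induction hx using Submodule.span_induction with
    | mem x hx =>
      obtain ⟨i, rfl⟩ := hx
      rw [act_mul, act_mul, hgD', act_eq u, ← pow_succ_mulVec, act_add, hgD', hgD', act_eq u',
        ← pow_succ_mulVec]
    | zero => simp [act]
    | add x y _ _ hx hy => rw [act_add, act_add, hx, hy]
    | smul r x _ hx => rw [act_smul, act_smul, hx]
  exact ⟨h', by rw [key, mul_inv_cancel_right]⟩

end CfsgLib.SympRegGen
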