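import Cfsg.Agent.SympRegGen.Element
import Cfsg.Agent.SLRegGen.Chain

/-!
Existence of regular unipotent symplectic elements in every characteristic.
-/

set_option autoImplicit false

namespace CfsgLib.SympRegGen

open Matrix

variable (n : ℕ) (F : Type*) [Field F]

/-- The unitriangular Jordan block. -/
def jordan : Matrix (Fin n) (Fin n) F :=
  Matrix.of fun i j => if j.val = i.val then 1 else if j.val = i.val + 1 then 1 else 0

/-- Its inverse. -/
def jordanInv : Matrix (Fin n) (Fin n) F :=
  Matrix.of fun i j => if i.val ≤ j.val then (-1) ^ (j.val - i.val) else 0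

/-- The corner matrix. -/
def corner : Matrix (Fin n) (Fin n) F :=
  Matrix.of fun i j => if i.val + 1 = n ∧ j.val + 1 = n then 1 else 0

lemma jordan_mul_inv : jordan n F * jordanInv n F = 1 := by
  ext i j
  rw [Matrix.mul_apply]
  have hsplit : ∀ k : Fin n, jordan n F i k * jordanInv n F k j =
      (if k = i then jordanInv n F i j else 0) + (if k.val = i.val + 1 then jordanInv n F k j else 0) := by
    intro k
    simp only [jordan, Matrix.of_apply]
    by_cases h1 : k = i
    · subst h1
      rw [if_pos rfl, if_pos rfl, if_neg (by omega), one_mul, add_zero]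
    · rw [if_neg (fun h => h1 (Fin.ext h)), if_neg h1, zero_add, ite_mul, one_mul, zero_mul]
  rw [Finset.sum_congr rfl (fun k _ => hsplit k), Finset.sum_add_distrib, Finset.sum_ite_eq',
    if_pos (Finset.mem_univ i), Matrix.one_apply]
  by_cases hi : i.val + 1 < n
  · rw [Finset.sum_eq_single (⟨i.val + 1, hi⟩ : Fin n)]
    · rw [if_pos rfl]
      simp only [jordanInv, Matrix.of_apply]
      rcases lt_trichotomy i.val j.val with h | h | h
      · rw [if_pos h.le, if_pos (by omega), if_neg (fun e => by rw [e] at h; omega),
          show j.val - i.val = j.val - (i.val + 1) + 1 by omega, pow_succ]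
        ring
      · rw [if_pos h.le, if_neg (by omega), if_pos (Fin.ext h), h, Nat.sub_self]
        simp
      · rw [if_neg (by omega), if_neg (by omega), if_neg (fun e => by rw [e] at h; omega), add_zero]
    · intro k _ hk
      rw [if_neg (fun e => hk (Fin.ext e))]
    · simp
  · rw [Finset.sum_eq_zero (fun k _ => if_neg (by omega)), add_zero]
    simp only [jordanInv, Matrix.of_apply]
    by_cases h : i = j
    · subst h
      simp
    · have : i.val ≠ j.val := fun e => h (Fin.ext e)
      rw [if_neg (by omega), if_neg h]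

/-- The matrix of a regular unipotent element. -/
def regMat : Matrix (Fin n ⊕ Fin n) (Fin n ⊕ Fin n) F :=
  fromBlocks (jordan n F) (jordan n F * corner n F) 0 (jordanInv n F)ᵀ

lemma corner_symm : (corner n F)ᵀ = corner n F := by
  ext i j
  simp [corner, and_comm]

lemma regMat_mem : regMat n F ∈ Matrix.symplecticGroup (Fin n) F := by
  rw [SymplecticGroup.mem_iff', regMat, J, fromBlocks_transpose, fromBlocks_multiply, fromBlocks_multiply]
  have h := jordan_mul_inv n F
  have h' : jordanInv n F * jordan n F = 1 := mul_eq_one_comm.1 h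
  rw [fromBlocks_inj]
  simp only [Matrix.transpose_zero, Matrix.zero_mul, Matrix.mul_zero, Matrix.mul_one, Matrix.one_mul,
    Matrix.neg_mul, Matrix.mul_neg, add_zero, zero_add, neg_zero, transpose_mul, transpose_transpose,
    corner_symm]
  refine ⟨trivial, ?_, ?_, ?_⟩
  · rw [← transpose_mul, h', transpose_one]
  · exact h'
  · rw [← Matrix.mul_assoc, h', Matrix.one_mul, Matrix.mul_assoc, ← transpose_mul, h', transpose_one,
      Matrix.mul_one, add_neg_cancel]

/-- The order of the indices in which `regMat` is unitriangular. -/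
def flagOrder : Fin (2 * n) ≃ Fin n ⊕ Fin n :=
  ((finCongr (two_mul n)).trans finSumFinEquiv.symm).trans (Equiv.sumCongr (Equiv.refl _) Fin.revPerm)

lemma flagOrder_inl (k : Fin (2 * n)) (h : k.val < n) : flagOrder n k = Sum.inl ⟨k.val, h⟩ := by
  rw [← Equiv.eq_symm_apply]
  ext
  simp [flagOrder]

lemma flagOrder_inr (k : Fin (2 * n)) (h : ¬ k.val < n) :
    flagOrder n k = Sum.inr ⟨2 * n - 1 - k.val, by omega⟩ := by
  rw [← Equiv.eq_symm_apply]
  ext
  simp [flagOrder, Fin.rev]
  omega

lemma corner_mul_apply (i j : Fin n) : (jordan n F * corner n F) i j =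
    if j.val + 1 = n ∧ n ≤ i.val + 2 then 1 else 0 := by
  have hin := i.isLt
  rw [Matrix.mul_apply, Finset.sum_eq_single (⟨n - 1, by omega⟩ : Fin n)]
  · have e : corner n F ⟨n - 1, by omega⟩ j = if j.val + 1 = n then 1 else 0 := by
      simp only [corner, Matrix.of_apply]
      exact if_congr ⟨fun h => h.2, fun h => ⟨by omega, h⟩⟩ rfl rfl
    rw [e]
    by_cases hj : j.val + 1 = n
    · rw [if_pos hj, mul_one]
      by_cases hi : n ≤ i.val + 2
      · rw [if_pos ⟨hj, hi⟩]
        simp only [jordan, Matrix.of_apply]
        by_cases h1 : n - 1 = i.val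
        · rw [if_pos h1]
        · rw [if_neg h1, if_pos (by omega)]
      · rw [if_neg (fun h => hi h.2)]
        simp only [jordan, Matrix.of_apply]
        rw [if_neg (by omega), if_neg (by omega)]
    · rw [if_neg hj, if_neg (fun h => hj h.1), mul_zero]
  · intro k _ hk
    have hk' : k.val + 1 ≠ n := fun e => hk (Fin.ext (by simp; omega))
    rw [show corner n F k j = 0 from if_neg (fun h => hk' h.1), mul_zero]
  · simp

lemma regMat_regular (hn : 1 ≤ n) :
    (regMat n F - 1) ^ (2 * n) = 0 ∧ (regMat n F - 1) ^ (2 * n - 1) ≠ 0 := by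
  let R : Matrix (Fin n ⊕ Fin n) (Fin n ⊕ Fin n) F ≃ₐ[F] Matrix (Fin (2 * n)) (Fin (2 * n)) F :=
    Matrix.reindexAlgEquiv F F (flagOrder n).symm
  set N := R (regMat n F - 1) with hN
  have hentry : ∀ i j : Fin (2 * n), N i j =
      regMat n F (flagOrder n i) (flagOrder n j) - if i = j then 1 else 0 := by
    intro i j
    simp [hN, R, Matrix.reindex_apply, Matrix.one_apply, (flagOrder n).injective.eq_iff]
  have hlo : ∀ i j : Fin (2 * n), j.val ≤ i.val → N i j = 0 := by
    intro i j h
    rw [hentry]
    by_cases hi : i.val < n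
    · rw [flagOrder_inl n i hi, flagOrder_inl n j (by omega)]
      by_cases e : i = j
      · subst e; simp [regMat, jordan]
      · have : i.val ≠ j.val := fun e' => e (Fin.ext e')
        simp [regMat, jordan, e]
        rw [if_neg (by omega), if_neg (by omega)]
    · rw [flagOrder_inr n i hi]
      by_cases hj : j.val < n
      · rw [flagOrder_inl n j hj, if_neg (fun e => by rw [e] at hi; omega)]
        simp [regMat]
      · rw [flagOrder_inr n j hj]
        by_cases e : i = j
        · subst e; simp [regMat, jordanInv]
        · have : i.val ≠ j.val := fun e' => e (Fin.ext e')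
          simp [regMat, jordanInv, e]
          omega
  have hup : ∀ i j : Fin (2 * n), i.val + 1 = j.val → j.val < 2 * n → N i j ≠ 0 := by
    intro i j h _
    rw [hentry, if_neg (fun e => by rw [e] at h; omega), sub_zero]
    by_cases hi : i.val < n
    · rw [flagOrder_inl n i hi]
      by_cases hj : j.val < n
      · rw [flagOrder_inl n j hj]
        simp [regMat, jordan, h.symm]
      · rw [flagOrder_inr n j hj]
        simp [regMat, corner_mul_apply]
        omega
    · rw [flagOrder_inr n i hi, flagOrder_inr n j (by omega)]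
      simp [regMat, jordanInv]
      omega
  constructor
  · apply R.injective
    rw [map_pow, ← hN, map_zero]
    ext i j
    rw [Matrix.zero_apply]
    exact CfsgLib.SLRegGen.pow_apply_eq_zero hlo _ i j (by omega)
  · intro h0
    have h1 := CfsgLib.SLRegGen.pow_apply_ne_zero hlo (m := 2 * n) hup (2 * n - 1) ⟨0, by omega⟩
      ⟨2 * n - 1, by omega⟩ (by simp) (by simp; omega)
    apply h1
    rw [hN, ← map_pow, h0, map_zero, Matrix.zero_apply]

/-- There is a regular unipotent element with a cyclic vector. -/
theorem exists_regular (hn : 2 ≤ n) :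
    ∃ (u : Matrix.symplecticGroup (Fin n) F) (E D : Fin n ⊕ Fin n → F) (c : F), Reg u E D c := by
  obtain ⟨h0, h1⟩ := regMat_regular n F (by omega)
  exact ⟨⟨regMat n F, regMat_mem n F⟩, exists_reg hn h0 h1⟩

end CfsgLib.SympRegGen
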