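import Cfsg.Agent.SympRegGen.Element

/-!
Shifting the invariants of a cyclic vector; `T u` is conjugate to `u`.
-/

set_option autoImplicit false

namespace CfsgLib.SympRegGen

open Matrix CfsgLib.Classical.Symp

variable {m : ℕ} {F : Type*} [Field F]

local notation "B" => Cfsg.sympForm m F
local notation "Mat" => Matrix (Fin m ⊕ Fin m) (Fin m ⊕ Fin m) F
local notation "V" => (Fin m ⊕ Fin m → F)
local notation "Sp" => Matrix.symplecticGroup (Fin m) F
local notation:70 g:71 " ⋆ " x:70 => act g x

namespace Reg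

variable {u : Matrix.symplecticGroup (Fin m) F} {E D : Fin m ⊕ Fin m → F} {c : F} (R : Reg u E D c)
include R

lemma form_D_E : B D E = -1 := by rw [form_swap, R.pair]

/-- Rescaling. -/
lemma smul {a : F} (ha : a ≠ 0) : Reg u (a⁻¹ • E) (a • D) (c / a ^ 2) := by
  refine ⟨R.two_le, R.nil, ?_, ?_⟩
  · rw [mulVec_smul, R.top, smul_smul, smul_smul]
    congr 1
    field_simp
  · rw [form_smul_left, form_smul_right, R.pair]
    field_simp

lemma pow_act_three {w : V} {e : F} (he : nilPart u *ᵥ (nilPart u *ᵥ w) = e • E) :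
    ∀ k : ℕ, (u ^ k) ⋆ w = w + (k : F) • (nilPart u *ᵥ w) + ((k.choose 2 : ℕ) * e : F) • E := by
  intro k
  induction k with
  | zero => simp [act]
  | succ k ih =>
    rw [pow_succ', act_mul, ih, act_add, act_add, act_smul, act_smul, R.fix_E, act_eq u w,
      act_eq u (nilPart u *ᵥ w), he, show (k + 1).choose 2 = k.choose 2 + k by
        rw [Nat.choose_succ_succ' k 1, Nat.choose_one_right, add_comm]]
    push_cast
    module

lemma inv_pow_act_three {w : V} {e : F} (he : nilPart u *ᵥ (nilPart u *ᵥ w) = e • E) (k : ℕ) :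
    (u ^ k)⁻¹ ⋆ w = w - (k : F) • (nilPart u *ᵥ w) + (((k + 1).choose 2 : ℕ) * e : F) • E := by
  have hN : ∀ j : ℕ, (u ^ j) ⋆ (nilPart u *ᵥ w) = nilPart u *ᵥ w + ((j : F) * e) • E := by
    intro j
    induction j with
    | zero => simp [act]
    | succ j ih =>
      rw [pow_succ', act_mul, ih, act_add, act_smul, R.fix_E, act_eq u (nilPart u *ᵥ w), he]
      push_cast
      module
  have hk : ((k.choose 2 : ℕ) : F) + ((k + 1).choose 2 : ℕ) = (k : F) * k := by
    have : k.choose 2 + (k + 1).choose 2 = k * k := by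
      induction k with
      | zero => rfl
      | succ k ih =>
        have t1 : (k + 1 + 1).choose 2 = (k + 1) + (k + 1).choose 2 := by
          rw [Nat.choose_succ_succ' (k + 1) 1, Nat.choose_one_right]
        have t2 : (k + 1).choose 2 = k + k.choose 2 := by
          rw [Nat.choose_succ_succ' k 1, Nat.choose_one_right]
        nlinarith
    exact_mod_cast congrArg (fun z : ℕ => (z : F)) this
  have key : (u ^ k) ⋆ (w - (k : F) • (nilPart u *ᵥ w) + (((k + 1).choose 2 : ℕ) * e : F) • E) = w := by
    rw [act_add, act_sub, act_smul, act_smul, R.act_pow_E, R.pow_act_three he k, hN]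
    match_scalars
    · ring
    · ring
    · linear_combination e * hk
  conv_lhs => rw [← key]
  rw [act_inv_act]

/-- The invariants of `D + t • w`. -/
lemma invariant_shift {w : V} {e : F} (he : nilPart u *ᵥ (nilPart u *ᵥ w) = e • E) (hEw : B E w = 0)
    (t : F) (k : ℕ) :
    B (D + t • w) ((u ^ k) ⋆ (D + t • w)) = B D ((u ^ k) ⋆ D) +
      (k : F) * (t * (e + 2 * B D (nilPart u *ᵥ w)) + t ^ 2 * B w (nilPart u *ᵥ w)) := by
  rw [act_add, act_smul, form_add_left, form_add_right, form_add_right, form_smul_left, form_smul_left,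
    form_smul_right, form_smul_right, form_act_right (u ^ k) w D, R.inv_pow_act_three he, R.pow_act_three he]
  simp only [form_add_left, form_add_right, form_sub_left, form_smul_left, form_smul_right, form_self,
    R.form_D_E, R.pair]
  rw [form_swap w E, hEw, form_swap (nilPart u *ᵥ w) D, form_swap w D,
    show (k + 1).choose 2 = k.choose 2 + k by rw [Nat.choose_succ_succ' k 1, Nat.choose_one_right, add_comm]]
  push_cast
  ring

/-- All shifts exist, except in characteristic two and dimension four. -/
lemma exists_shift (h : 3 ≤ m ∨ (2 : F) ≠ 0) (τ : F) :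
    ∃ D' : V, B E D' = 1 ∧ ∀ k : ℕ, B D' ((u ^ k) ⋆ D') = B D ((u ^ k) ⋆ D) + (k : F) * τ := by
  by_cases h2 : (2 : F) = 0
  · obtain ⟨w, hw, hEw, hμ⟩ := R.exists_w3
    refine ⟨D + τ • w, by rw [form_add_right, form_smul_right, hEw, R.pair, mul_zero, add_zero], fun k => ?_⟩
    rw [R.invariant_shift (e := 1) (by rw [hw, one_smul]) hEw, hμ (h.resolve_right (fun h' => h' h2)), h2]
    ring
  · obtain ⟨w, hw, hEw⟩ := R.exists_w2
    refine ⟨D + (-τ / 2) • w, by rw [form_add_right, form_smul_right, hEw, R.pair, mul_zero, add_zero],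
      fun k => ?_⟩
    rw [R.invariant_shift (e := 0) (by rw [hw, R.nil_E, zero_smul]) hEw, hw, R.form_D_E, form_swap w E, hEw]
    field_simp
    ring

/-- Changing the element by a transvection at the fixed vector. -/
lemma transvection_mul_pow (lam : F) : ∀ (k : ℕ) (x : V),
    ((spT E lam * u) ^ k) ⋆ x = (u ^ k) ⋆ x - ((k : F) * lam * B E x) • E := by
  intro k
  induction k with
  | zero => simp [act]
  | succ k ih =>
    intro x
    rw [pow_succ', act_mul, ih, act_mul, act_sub, act_smul, R.fix_E, pow_succ', act_mul]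
    show (spT E lam : Mat) *ᵥ _ = _
    rw [spT_mulVec, form_sub_left, form_smul_left, form_self, form_swap (u ⋆ ((u ^ k) ⋆ x)) E,
      R.form_E_act, R.form_E_act_pow]
    push_cast
    module

lemma nilPart_transvection (lam : F) (x : V) :
    nilPart (spT E lam * u) *ᵥ x = nilPart u *ᵥ x - (lam * B E x) • E := by
  have h := R.transvection_mul_pow lam 1 x
  rw [pow_one, pow_one, Nat.cast_one, one_mul] at h
  rw [nilPart_mulVec, nilPart_mulVec, h]
  abel

lemma nilPart_transvection_pow (lam : F) : ∀ (j : ℕ) (x : V),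
    nilPart (spT E lam * u) ^ (j + 2) *ᵥ x = nilPart u ^ (j + 2) *ᵥ x := by
  intro j
  induction j with
  | zero =>
    intro x
    rw [zero_add, pow_two, pow_two, ← mulVec_mulVec, ← mulVec_mulVec, R.nilPart_transvection,
      R.nilPart_transvection, mulVec_sub, mulVec_smul, R.nil_E, smul_zero, sub_zero,
      form_sub_right, form_smul_right, form_self, R.form_E_nil]
    simp
  | succ j ih =>
    intro x
    have h0 : B E (nilPart u ^ (j + 2) *ᵥ x) = 0 := R.form_E_pow x (j + 1)
    rw [show j + 1 + 2 = (j + 2) + 1 by omega, pow_succ_mulVec _ (j + 2), ih, R.nilPart_transvection, h0,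
      mul_zero, zero_smul, sub_zero, ← pow_succ_mulVec]

/-- `T u` is regular with the same data. -/
lemma transvection_mul (lam : F) : Reg (spT E lam * u) E D c := by
  have := R.two_le
  refine ⟨R.two_le, Matrix.ext_iff_mulVec.2 fun x => ?_, ?_, R.pair⟩
  · rw [show 2 * m = (2 * m - 2) + 2 by omega, R.nilPart_transvection_pow,
      show (2 * m - 2) + 2 = 2 * m by omega, R.nil]
  · rw [show 2 * m - 1 = (2 * m - 3) + 2 by omega, R.nilPart_transvection_pow,
      show (2 * m - 3) + 2 = 2 * m - 1 by omega]
    exact R.top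

lemma invariant_transvection (lam : F) {D' : V} (h : B E D' = 1) (k : ℕ) :
    B D' (((spT E lam * u) ^ k) ⋆ D') = B D' ((u ^ k) ⋆ D') + (k : F) * lam := by
  rw [R.transvection_mul_pow, h, mul_one, form_sub_right, form_smul_right, form_swap D' E, h]
  ring

/-- Conjugacy of `T u` and `u`. -/
lemma exists_conj_transvection (lam : F) {D' : V} (h : B E D' = 1)
    (hk : ∀ k : ℕ, B D' ((u ^ k) ⋆ D') = B D ((u ^ k) ⋆ D) - (k : F) * lam) :
    ∃ g : Sp, g * u * g⁻¹ = spT E lam * u :=
  exists_conj R ((R.transvection_mul lam).change h) fun k => by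
    rw [R.invariant_transvection lam h, hk]; ring

end Reg

end CfsgLib.SympRegGen
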