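import Cfsg.Agent.SympRegGen.Element

/-!
The conjugating element, by Witt's theorem.
-/

set_option autoImplicit false

namespace CfsgLib.SympRegGen

open Matrix CfsgLib.Classical.Symp

variable {m : ℕ} {F : Type*} [Field F]

local notation "B" => Cfsg.sympForm m F
local notation "V" => (Fin m ⊕ Fin m → F)
local notation "Sp" => Matrix.symplecticGroup (Fin m) F
local notation:70 g:71 " ⋆ " x:70 => act g x

namespace Reg

variable {u : Matrix.symplecticGroup (Fin m) F} {E D : Fin m ⊕ Fin m → F} {c : F} (R : Reg u E D c)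
include R

lemma coeff_three {A A' A'' : F} (h : A • D + A' • (nilPart u *ᵥ D) + A'' • (nilPart u ^ 2 *ᵥ D) = 0) :
    A = 0 ∧ A' = 0 ∧ A'' = 0 := by
  have := R.two_le
  have key : ∀ j : ℕ, A • (nilPart u ^ j *ᵥ D) + A' • (nilPart u ^ (j + 1) *ᵥ D) +
      A'' • (nilPart u ^ (j + 2) *ᵥ D) = 0 := by
    intro j
    have h' := congrArg (fun x => nilPart u ^ j *ᵥ x) h
    simp only [mulVec_add, mulVec_smul, mulVec_mulVec, ← pow_succ, ← pow_add, mulVec_zero] at h'
    exact h'
  have h1 := key (2 * m - 1)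
  rw [R.pow_zero' (j := 2 * m - 1 + 1) (by omega), R.pow_zero' (j := 2 * m - 1 + 2) (by omega), smul_zero,
    smul_zero, add_zero, add_zero, smul_eq_zero] at h1
  have hA : A = 0 := h1.resolve_right R.top_ne
  have h2 := key (2 * m - 2)
  rw [hA, zero_smul, zero_add, show 2 * m - 2 + 1 = 2 * m - 1 by omega,
    R.pow_zero' (j := 2 * m - 2 + 2) (by omega), smul_zero, add_zero, smul_eq_zero] at h2
  have hA' : A' = 0 := h2.resolve_right R.top_ne
  have h3 := key (2 * m - 3)
  rw [hA, hA', zero_smul, zero_smul, zero_add, zero_add, show 2 * m - 3 + 2 = 2 * m - 1 by omega,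
    smul_eq_zero] at h3
  exact ⟨hA, hA', h3.resolve_right R.top_ne⟩

/-- The conjugate `v` with `v E = α D` and `(v u v) E = -(E + ρ D)`. -/
theorem exists_twist {E' y : V} {c' : F} (R' : Reg u E' y c') {α ρ : F} (hα : α ≠ 0)
    (hy : B y (u ⋆ y) = α) (hδ : α ^ 2 * B D (u ⋆ D) = B y ((u ^ 2) ⋆ y) + ρ) :
    ∃ g : Sp, (g * u * g⁻¹) ⋆ E = α • D ∧
      (g * u * g⁻¹) ⋆ (u ⋆ ((g * u * g⁻¹) ⋆ E)) = -(E + ρ • D) := by
  have := R.two_le
  set z : V := (-α⁻¹) • (u⁻¹ ⋆ y + (ρ / α) • y) with hz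
  have ha : LinearIndependent F ![y, α⁻¹ • (u ⋆ y), z] := by
    rw [Fintype.linearIndependent_iff]
    intro x hx
    simp only [Fin.sum_univ_three, Matrix.cons_val_zero, Matrix.cons_val_one, Matrix.cons_val_two,
      Matrix.head_cons, Matrix.tail_cons, hz] at hx
    have h := congrArg (fun w => u ⋆ w) hx
    simp only [act_add, act_smul, act_act_inv] at h
    have e2 : u ⋆ (u ⋆ y) = y + (2 : F) • (nilPart u *ᵥ y) + nilPart u ^ 2 *ᵥ y := by
      rw [act_eq u (u ⋆ y), act_eq u y, mulVec_add, mulVec_mulVec, ← pow_two]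
      module
    rw [e2, show (u ⋆ (0 : V)) = 0 by simp [act], act_eq u y] at h
    obtain ⟨h0, h1, h2⟩ := R'.coeff_three (A := x 0 + x 1 * α⁻¹ + x 2 * (-α⁻¹) * (1 + ρ / α))
      (A' := x 0 + 2 * (x 1 * α⁻¹) + x 2 * (-α⁻¹) * (ρ / α)) (A'' := x 1 * α⁻¹) (by
        rw [← h]
        module)
    have hx1 : x 1 = 0 := (mul_eq_zero.1 h2).resolve_right (inv_ne_zero hα)
    have hx2 : x 2 = 0 := by
      have : x 2 * α⁻¹ = 0 := by linear_combination h1 - h0 - h2
      exact (mul_eq_zero.1 this).resolve_right (inv_ne_zero hα)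
    have hx0 : x 0 = 0 := by
      rw [hx1, hx2] at h0
      simpa using h0
    intro i
    fin_cases i <;> assumption
  have hb : LinearIndependent F ![E, D, u ⋆ D] := by
    rw [Fintype.linearIndependent_iff]
    intro x hx
    simp only [Fin.sum_univ_three, Matrix.cons_val_zero, Matrix.cons_val_one, Matrix.cons_val_two,
      Matrix.head_cons, Matrix.tail_cons] at hx
    have hN := congrArg (fun w => nilPart u *ᵥ w) hx
    simp only [mulVec_add, mulVec_smul, R.nil_E, smul_zero, zero_add, mulVec_zero, act_eq u D,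
      mulVec_mulVec, ← pow_two] at hN
    obtain ⟨-, h1, h2⟩ := R.coeff_three (A := 0) (A' := x 1 + x 2) (A'' := x 2) (by
      rw [← hN]; module)
    have hx1 : x 1 = 0 := by linear_combination h1 - h2
    rw [hx1, h2, zero_smul, zero_smul, add_zero, add_zero, smul_eq_zero] at hx
    have hx0 : x 0 = 0 := hx.resolve_right R.E_ne
    intro i
    fin_cases i <;> assumption
  have hyi : B y (u⁻¹ ⋆ y) = -α := by
    rw [form_act_right, inv_inv, form_swap, hy]
  have hg : ∀ i j, B (![y, α⁻¹ • (u ⋆ y), z] i) (![y, α⁻¹ • (u ⋆ y), z] j) =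
      B (![E, D, u ⋆ D] i) (![E, D, u ⋆ D] j) := by
    have h01 : B y (α⁻¹ • (u ⋆ y)) = B E D := by
      rw [form_smul_right, hy, R.pair, inv_mul_cancel₀ hα]
    have h02 : B y z = B E (u ⋆ D) := by
      rw [hz, form_smul_right, form_add_right, form_smul_right, form_self, hyi, R.form_E_act, R.pair]
      field_simp
      ring
    have h12 : B (α⁻¹ • (u ⋆ y)) z = B D (u ⋆ D) := by
      rw [hz, form_smul_right, form_smul_left, form_add_right, form_smul_right, form_swap (u ⋆ y) y, hy,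
        form_act_right u⁻¹ (u ⋆ y) y, inv_inv, ← act_mul, ← pow_two, form_swap ((u ^ 2) ⋆ y) y]
      field_simp
      linear_combination -hδ
    intro i j
    fin_cases i <;> fin_cases j <;> simp only [Matrix.cons_val_zero, Matrix.cons_val_one,
      Matrix.cons_val_two, Matrix.head_cons, Matrix.tail_cons, Fin.zero_eta, Fin.mk_one, Fin.reduceFinMk,
      Matrix.cons_val]
    all_goals first
      | rw [form_self, form_self]
      | assumption
      | rw [form_swap, h01, ← form_swap]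
      | rw [form_swap, h02, ← form_swap]
      | rw [form_swap, h12, ← form_swap]
  obtain ⟨g, hgi, hgx⟩ := CfsgLib.LinAlg.Witt.exists_symplectic_family
    (CfsgLib.SympFormStd.isSymplecticForm m F) ha hb hg
  let g' : Sp := ⟨(g : Matrix _ _ F), (mem_symplecticGroup_iff_form _).2 hgi⟩
  have g0 : g' ⋆ y = E := hgx 0
  have g1 : g' ⋆ (α⁻¹ • (u ⋆ y)) = D := hgx 1
  have g2 : g' ⋆ z = u ⋆ D := hgx 2
  have g1' : g' ⋆ (u ⋆ y) = α • D := by
    rw [← g1, act_smul, smul_smul, mul_inv_cancel₀ hα, one_smul]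
  have conjE : ∀ x : V, (g' * u * g'⁻¹) ⋆ (g' ⋆ x) = g' ⋆ (u ⋆ x) := fun x => by
    rw [act_mul, act_mul, act_inv_act]
  refine ⟨g', ?_, ?_⟩
  · rw [← g0, conjE, g1']
  · conv_lhs => rw [← g0, conjE, g1', act_smul, ← g2, act_smul, conjE]
    rw [hz, act_smul, act_add, act_act_inv, act_smul, act_smul, act_add, g0, act_smul, g1']
    match_scalars <;> field_simp

end Reg

end CfsgLib.SympRegGen
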