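import Cfsg.Agent.SympRegGen.Shift

/-!
The conjugating element in characteristic two, with a second image in the kernel of the square.
-/

set_option autoImplicit false

namespace CfsgLib.SympRegGen

open Matrix CfsgLib.Classical.Symp

variable {m : ℕ} {F : Type*} [Field F]

local notation "B" => Cfsg.sympForm m F
local notation "V" => (Fin m ⊕ Fin m → F)
local notation "Sp" => Matrix.symplecticGroup (Fin m) F
local notation:70 g:71 " ⋆ " x:70 => act g x

namespace Reg

variable {u : Matrix.symplecticGroup (Fin m) F} {E D : Fin m ⊕ Fin m → F} {c : F} (R : Reg u E D c)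
include R

/-- The conjugate `v` with `v E = D` and `v (u D)` in the kernel of the square. -/
theorem exists_twist_two (hm : 3 ≤ m) (h2 : (2 : F) = 0) (hδ : B D (u ⋆ D) = 1) :
    ∃ (g : Sp) (w : V), (g * u * g⁻¹) ⋆ E = D ∧ (g * u * g⁻¹) ⋆ (u ⋆ D) = w ∧
      nilPart u *ᵥ w = E ∧ B E w = 0 := by
  have hneg : ∀ a : F, -a = a := fun a => by linear_combination -(a * h2)
  -- the vector in the kernel of the square
  obtain ⟨w2, hw2, hEw2⟩ := R.exists_w2
  set w : V := w2 + (B D w2 - 1) • E with hw
  have hNw : nilPart u *ᵥ w = E := by rw [hw, mulVec_add, hw2, mulVec_smul, R.nil_E, smul_zero, add_zero]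
  have hEw : B E w = 0 := by rw [hw, form_add_right, hEw2, form_smul_right, form_self, mul_zero, add_zero]
  have hDw : B D w = 1 := by
    rw [hw, form_add_right, form_smul_right, R.form_D_E]
    ring
  -- its preimage
  obtain ⟨w3, hw3, hEw3, hμ⟩ := R.exists_w3
  set b := B D (nilPart u *ᵥ w3) with hb
  set a := B D w3 with ha'
  set z : V := w3 + (b - 1) • w + (a + (b - 1) - 1) • E with hz
  have hNz : nilPart u *ᵥ z = nilPart u *ᵥ w3 + (b - 1) • E := by
    rw [hz, mulVec_add, mulVec_add, mulVec_smul, mulVec_smul, hNw, R.nil_E, smul_zero, add_zero]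
  have hNNz : nilPart u *ᵥ (nilPart u *ᵥ z) = E := by
    rw [hNz, mulVec_add, hw3, mulVec_smul, R.nil_E, smul_zero, add_zero]
  have hEz : B E z = 0 := by
    rw [hz, form_add_right, form_add_right, form_smul_right, form_smul_right, hEw3, hEw, form_self]
    ring
  have hDz : B D z = 1 := by
    rw [hz, form_add_right, form_add_right, form_smul_right, form_smul_right, ← ha', hDw, R.form_D_E]
    ring
  have hDNz : B D (nilPart u *ᵥ z) = 1 := by
    rw [hNz, form_add_right, form_smul_right, ← hb, R.form_D_E]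
    ring
  have hwNw3 : B w (nilPart u *ᵥ w3) = 0 := by
    rw [form_swap, form_nilPart_left]
    have h' : nilPart u *ᵥ (u⁻¹ ⋆ w) = E := by
      simp only [act, mulVec_mulVec, ← (commute_inv_nilPart u).eq]
      rw [← mulVec_mulVec, hNw]
      exact R.inv_fix_E
    rw [h', form_swap w3 E, hEw3]
    ring
  have hzz : B z (nilPart u *ᵥ z) = 0 := by
    rw [hNz, hz]
    simp only [form_add_left, form_add_right, form_smul_left, form_smul_right, R.form_E_nil, form_self,
      hEw, hwNw3, hμ hm]
    rw [form_swap w3 E, hEw3, form_swap w E, hEw]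
    ring
  have huz : u ⋆ z = z + nilPart u *ᵥ z := act_eq u z
  have huiz : u⁻¹ ⋆ z = z - nilPart u *ᵥ z + E := by
    have e : u ⋆ (z - nilPart u *ᵥ z + E) = z := by
      rw [act_add, act_sub, R.fix_E, huz, act_eq u (nilPart u *ᵥ z), hNNz]
      abel
    conv_lhs => rw [← e]
    rw [act_inv_act]
  clear_value z w
  -- independence
  have h3z : ∀ j : ℕ, nilPart u ^ (j + 3) *ᵥ z = 0 := by
    intro j
    rw [pow_succ_mulVec', show j + 2 = j + 1 + 1 from rfl, pow_succ_mulVec', pow_succ_mulVec', hNNz]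
    rw [← pow_succ_mulVec', pow_succ_mulVec', R.nil_E, mulVec_zero]
  have ha : LinearIndependent F ![D, u ⋆ D, z, u ⋆ z] := by
    rw [Fintype.linearIndependent_iff]
    intro x hx
    simp only [Fin.sum_univ_four, Matrix.cons_val, act_eq u D, huz] at hx
    have k1 := congrArg (fun v => nilPart u ^ (2 * m - 1) *ᵥ v) hx
    simp only [mulVec_add, mulVec_smul, ← pow_succ_mulVec', mulVec_zero] at k1
    rw [R.pow_zero' (j := 2 * m - 1 + 1) (by omega), show 2 * m - 1 + 1 = 2 * m - 3 + 3 by omega, h3z,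
      show 2 * m - 1 = 2 * m - 4 + 3 by omega, h3z, show 2 * m - 4 + 3 = 2 * m - 1 by omega] at k1
    simp only [smul_zero, add_zero, ← add_smul, smul_eq_zero] at k1
    have h01 : x 0 + x 1 = 0 := k1.resolve_right R.top_ne
    have k2 := congrArg (fun v => nilPart u ^ (2 * m - 2) *ᵥ v) hx
    simp only [mulVec_add, mulVec_smul, ← pow_succ_mulVec', mulVec_zero] at k2
    rw [show 2 * m - 2 + 1 = 2 * m - 1 by omega, show 2 * m - 2 = 2 * m - 5 + 3 by omega, h3z,
      show 2 * m - 5 + 3 = 2 * m - 2 by omega] at k2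
    rw [show nilPart u ^ (2 * m - 1) *ᵥ z = 0 by
      rw [show 2 * m - 1 = 2 * m - 4 + 3 by omega]; exact h3z _] at k2
    simp only [smul_zero, add_zero] at k2
    rw [smul_add, ← add_assoc, ← add_smul, h01, zero_smul, zero_add, smul_eq_zero] at k2
    have h1 : x 1 = 0 := k2.resolve_right R.top_ne
    have h0 : x 0 = 0 := by rw [h1, add_zero] at h01; exact h01
    rw [h0, h1, zero_smul, zero_smul, zero_add, zero_add] at hx
    have k3 := congrArg (fun v => nilPart u *ᵥ (nilPart u *ᵥ v)) hx
    simp only [mulVec_add, mulVec_smul, hNNz, R.nil_E, mulVec_zero, add_zero, ← add_smul, smul_eq_zero] at k3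
    have h23 : x 2 + x 3 = 0 := k3.resolve_right R.E_ne
    have k4 : x 3 • (nilPart u *ᵥ z) = 0 := by
      rw [smul_add, ← add_assoc, ← add_smul, h23, zero_smul, zero_add] at hx
      exact hx
    have k5 := congrArg (fun v => nilPart u *ᵥ v) k4
    simp only [mulVec_smul, hNNz, mulVec_zero, smul_eq_zero] at k5
    have h3 : x 3 = 0 := k5.resolve_right R.E_ne
    have h2' : x 2 = 0 := by rw [h3, add_zero] at h23; exact h23
    intro i
    fin_cases i <;> assumption
  have h2w : ∀ j : ℕ, nilPart u ^ (j + 2) *ᵥ w = 0 := by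
    intro j
    rw [pow_succ_mulVec', hNw, pow_succ_mulVec', R.nil_E, mulVec_zero]
  have hb' : LinearIndependent F ![E, D, u ⋆ D, w] := by
    rw [Fintype.linearIndependent_iff]
    intro x hx
    simp only [Fin.sum_univ_four, Matrix.cons_val, act_eq u D] at hx
    have k1 := congrArg (fun v => nilPart u ^ (2 * m - 1) *ᵥ v) hx
    simp only [mulVec_add, mulVec_smul, ← pow_succ_mulVec', mulVec_zero] at k1
    rw [R.pow_zero' (j := 2 * m - 1 + 1) (by omega), show 2 * m - 1 = 2 * m - 2 + 1 by omega,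
      pow_succ_mulVec' _ _ E, R.nil_E, mulVec_zero,
      show nilPart u ^ (2 * m - 2 + 1) *ᵥ w = 0 by
        rw [show 2 * m - 2 + 1 = 2 * m - 3 + 2 by omega]; exact h2w _] at k1
    rw [show 2 * m - 2 + 1 = 2 * m - 1 by omega] at k1
    simp only [smul_zero, add_zero, zero_add, ← add_smul, smul_eq_zero] at k1
    have h12 : x 1 + x 2 = 0 := k1.resolve_right R.top_ne
    rw [smul_add, ← add_assoc, add_assoc (x 0 • E), ← add_smul, h12, zero_smul, add_zero] at hx
    have k2 := congrArg (fun v => nilPart u ^ (2 * m - 2) *ᵥ v) hx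
    simp only [mulVec_add, mulVec_smul, ← pow_succ_mulVec', mulVec_zero] at k2
    rw [show 2 * m - 2 + 1 = 2 * m - 1 by omega, show 2 * m - 2 = 2 * m - 3 + 1 by omega,
      pow_succ_mulVec' _ _ E, R.nil_E, mulVec_zero, show 2 * m - 3 + 1 = 2 * m - 4 + 2 by omega, h2w] at k2
    simp only [smul_zero, add_zero, zero_add, smul_eq_zero] at k2
    have h2' : x 2 = 0 := k2.resolve_right R.top_ne
    have h1 : x 1 = 0 := by rw [h2', add_zero] at h12; exact h12
    rw [h2', zero_smul, add_zero] at hx
    have k3 := congrArg (fun v => nilPart u *ᵥ v) hx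
    simp only [mulVec_add, mulVec_smul, R.nil_E, hNw, smul_zero, zero_add, mulVec_zero, smul_eq_zero] at k3
    have h3 : x 3 = 0 := k3.resolve_right R.E_ne
    rw [h3, zero_smul, add_zero, smul_eq_zero] at hx
    have h0 : x 0 = 0 := hx.resolve_right R.E_ne
    intro i
    fin_cases i <;> assumption
  have hg : ∀ i j, B (![D, u ⋆ D, z, u ⋆ z] i) (![D, u ⋆ D, z, u ⋆ z] j) =
      B (![E, D, u ⋆ D, w] i) (![E, D, u ⋆ D, w] j) := by
    have hui : u⁻¹ ⋆ w = w - E := by
      conv_lhs => rw [show w = u ⋆ (w - E) by rw [act_sub, R.fix_E, act_eq u w, hNw, add_sub_cancel_right]]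
      rw [act_inv_act]
    have h01 : B D (u ⋆ D) = B E D := by rw [hδ, R.pair]
    have h02 : B D z = B E (u ⋆ D) := by rw [hDz, R.form_E_act, R.pair]
    have h03 : B D (u ⋆ z) = B E w := by
      rw [huz, form_add_right, hDz, hDNz, hEw]
      linear_combination h2
    have h12 : B (u ⋆ D) z = B D (u ⋆ D) := by
      rw [form_act_left, huiz, form_add_right, form_sub_right, hDz, hDNz, R.form_D_E, hδ, hneg]
      ring
    have h13 : B (u ⋆ D) (u ⋆ z) = B D w := by rw [form_act, hDz, hDw]
    have h23 : B z (u ⋆ z) = B (u ⋆ D) w := by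
      rw [huz, form_add_right, form_self, hzz, form_act_left, hui, form_sub_right, hDw, R.form_D_E]
      linear_combination -h2
    intro i j
    fin_cases i <;> fin_cases j <;> simp only [Matrix.cons_val_zero, Matrix.cons_val_one,
      Matrix.cons_val_two, Matrix.cons_val_three, Matrix.head_cons, Matrix.tail_cons, Fin.zero_eta, Fin.mk_one,
      Fin.reduceFinMk, Matrix.cons_val]
    all_goals first
      | rw [form_self, form_self]
      | assumption
      | rw [form_swap, h01, ← form_swap]
      | rw [form_swap, h02, ← form_swap]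
      | rw [form_swap, h03, ← form_swap]
      | rw [form_swap, h12, ← form_swap]
      | rw [form_swap, h13, ← form_swap]
      | rw [form_swap, h23, ← form_swap]
  obtain ⟨g, hgi, hgx⟩ := CfsgLib.LinAlg.Witt.exists_symplectic_family
    (CfsgLib.SympFormStd.isSymplecticForm m F) ha hb' hg
  let g' : Sp := ⟨(g : Matrix _ _ F), (mem_symplecticGroup_iff_form _).2 hgi⟩
  have g0 : g' ⋆ D = E := hgx 0
  have g1 : g' ⋆ (u ⋆ D) = D := hgx 1
  have g2 : g' ⋆ z = u ⋆ D := hgx 2
  have g3 : g' ⋆ (u ⋆ z) = w := hgx 3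
  have conjE : ∀ x : V, (g' * u * g'⁻¹) ⋆ (g' ⋆ x) = g' ⋆ (u ⋆ x) := fun x => by
    rw [act_mul, act_mul, act_inv_act]
  exact ⟨g', w, by rw [← g0, conjE, g1], by rw [← g2, conjE, g3], hNw, hEw⟩

end Reg

end CfsgLib.SympRegGen
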